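import Mathlib
import Cfsg.Agent.Lib.Helper50.HUPT.Defs
import Cfsg.Agent.Lib.Helper32.HUP.SemiM

/-!
# HUPT (S3360): package [ABN]

An abelian normal subgroup `A` of a group transitive on the non-zero vectors is cyclic, the
algebra `KA ρ A` generated by it is a field, and if `A` is not irreducible this field is smaller
than `V`.
-/

set_option autoImplicit false

namespace Cfsg.Agent.Lib.Helper77.HUPT

open Cfsg.Agent.Lib.Helper50.HUPT
open Cfsg.Agent.Lib.Helper49.HUP (Irr)

universe u v

section basic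

variable {q : ℕ} [Fact q.Prime] {V : Type u} [AddCommGroup V] [Module (ZMod q) V]
  {G : Type v} [Group G]

theorem toE_apply (ρ : G →* (V ≃ₗ[ZMod q] V)) (g : G) (w : V) : toE ρ g w = ρ g w := rfl

theorem toE_mul (ρ : G →* (V ≃ₗ[ZMod q] V)) (a b : G) : toE ρ (a * b) = toE ρ a * toE ρ b := by
  apply LinearMap.ext
  intro w
  rw [Module.End.mul_apply, toE_apply, toE_apply, toE_apply, map_mul, LinearEquiv.mul_apply]

theorem toE_one (ρ : G →* (V ≃ₗ[ZMod q] V)) : toE ρ 1 = 1 := by
  apply LinearMap.ext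
  intro w
  rw [toE_apply, map_one, Module.End.one_apply]
  rfl

theorem toE_mul_inv (ρ : G →* (V ≃ₗ[ZMod q] V)) (g : G) : toE ρ g * toE ρ g⁻¹ = 1 := by
  rw [← toE_mul, mul_inv_cancel, toE_one]

theorem toE_inv_mul (ρ : G →* (V ≃ₗ[ZMod q] V)) (g : G) : toE ρ g⁻¹ * toE ρ g = 1 := by
  rw [← toE_mul, inv_mul_cancel, toE_one]

/-- `KA ρ A` is commutative for abelian `A`. -/
theorem ka_comm (ρ : G →* (V ≃ₗ[ZMod q] V)) (A : Subgroup G) (hA : Ab A) :
    ∀ f ∈ KA ρ A, ∀ g ∈ KA ρ A, f * g = g * f := by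
  have h1 : KA ρ A ≤ Subalgebra.centralizer (ZMod q) (toE ρ '' (A : Set G)) := by
    apply Algebra.adjoin_le
    rintro _ ⟨a, ha, rfl⟩
    rw [SetLike.mem_coe, Subalgebra.mem_centralizer_iff]
    rintro _ ⟨b, hb, rfl⟩
    rw [← toE_mul, ← toE_mul, hA b hb a ha]
  have h2 : KA ρ A ≤ Subalgebra.centralizer (ZMod q) ((KA ρ A : Subalgebra (ZMod q) _) : Set _) := by
    apply Algebra.adjoin_le
    rintro _ ⟨a, ha, rfl⟩
    rw [SetLike.mem_coe, Subalgebra.mem_centralizer_iff]
    intro g hg
    have h3 := (Subalgebra.mem_centralizer_iff (ZMod q)).1 (h1 hg) (toE ρ a) ⟨a, ha, rfl⟩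
    exact h3.symm
  intro f hf g hg
  exact ((Subalgebra.mem_centralizer_iff (ZMod q)).1 (h2 hf) g hg).symm

/-- `KA ρ A` is normalized by `G` for normal `A`. -/
theorem ka_norm (ρ : G →* (V ≃ₗ[ZMod q] V)) (A : Subgroup G) (hAn : A.Normal) :
    ∀ g : G, ∀ f ∈ KA ρ A, toE ρ g * f * toE ρ (g⁻¹) ∈ KA ρ A := by
  intro g f hf
  unfold KA at hf
  induction hf using Algebra.adjoin_induction with
  | mem x hx =>
    obtain ⟨a, ha, rfl⟩ := hx
    rw [← toE_mul, ← toE_mul]
    exact Algebra.subset_adjoin ⟨g * a * g⁻¹, hAn.conj_mem a ha g, rfl⟩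
  | algebraMap r =>
    rw [← Algebra.commutes, mul_assoc, toE_mul_inv, mul_one]
    exact Subalgebra.algebraMap_mem _ r
  | add x y _ _ hx hy =>
    rw [mul_add, add_mul]
    exact Subalgebra.add_mem _ hx hy
  | mul x y _ _ hx hy =>
    have h : toE ρ g * (x * y) * toE ρ g⁻¹ =
        (toE ρ g * x * toE ρ g⁻¹) * (toE ρ g * y * toE ρ g⁻¹) := by
      calc toE ρ g * (x * y) * toE ρ g⁻¹
          = toE ρ g * x * 1 * y * toE ρ g⁻¹ := by simp only [mul_one, mul_assoc]
        _ = toE ρ g * x * (toE ρ g⁻¹ * toE ρ g) * y * toE ρ g⁻¹ := by rw [toE_inv_mul]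
        _ = (toE ρ g * x * toE ρ g⁻¹) * (toE ρ g * y * toE ρ g⁻¹) := by simp only [mul_assoc]
    rw [h]
    exact Subalgebra.mul_mem _ hx hy

/-- An `A`-invariant submodule is invariant under `KA ρ A`. -/
theorem ka_inv (ρ : G →* (V ≃ₗ[ZMod q] V)) (A : Subgroup G) (W : Submodule (ZMod q) V)
    (hW : ∀ a ∈ A, ∀ v ∈ W, ρ a v ∈ W) : ∀ f ∈ KA ρ A, ∀ w ∈ W, f w ∈ W := by
  intro f hf
  unfold KA at hf
  induction hf using Algebra.adjoin_induction with
  | mem x hx =>
    obtain ⟨a, ha, rfl⟩ := hx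
    intro w hw
    exact hW a ha w hw
  | algebraMap r =>
    intro w hw
    rw [Module.algebraMap_end_apply]
    exact W.smul_mem r hw
  | add x y _ _ hx hy =>
    intro w hw
    rw [LinearMap.add_apply]
    exact W.add_mem (hx w hw) (hy w hw)
  | mul x y _ _ hx hy =>
    intro w hw
    rw [Module.End.mul_apply]
    exact hx _ (hy w hw)

end basic

theorem pkgAbn (hFld : PkgFld.{u, v}) : PkgAbn.{u, v} := by
  intro q _ V _ _ _ _ G _ _ ρ hinj hTr A hAn hA
  have hfld : IsFld (KA ρ A) := hFld ρ hTr (KA ρ A) (ka_comm ρ A hA) (ka_norm ρ A hAn)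
  obtain ⟨v₀, hv₀⟩ := exists_ne (0 : V)
  haveI : Finite (Module.End (ZMod q) V) :=
    Finite.of_injective (fun f : Module.End (ZMod q) V => (f : V → V)) DFunLike.coe_injective
  refine ⟨?_, hfld, ?_⟩
  · -- cyclic
    haveI : Nontrivial (KA ρ A) := by
      refine ⟨⟨0, 1, fun h => ?_⟩⟩
      have h1 : ((0 : KA ρ A) : Module.End (ZMod q) V) v₀ = ((1 : KA ρ A) : Module.End (ZMod q) V) v₀ := by
        rw [h]
      rw [Subalgebra.coe_zero, Subalgebra.coe_one, LinearMap.zero_apply, Module.End.one_apply] at h1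
      exact hv₀ h1.symm
    haveI : NoZeroDivisors (KA ρ A) := by
      refine ⟨fun {a b} hab => ?_⟩
      by_cases ha : a = 0
      · exact Or.inl ha
      · right
        have ha' : (a : Module.End (ZMod q) V) ≠ 0 := fun h => ha (Subtype.ext h)
        have hinja := hfld.2 a.1 a.2 ha'
        apply Subtype.ext
        apply LinearMap.ext
        intro w
        have h1 : ((a * b : KA ρ A) : Module.End (ZMod q) V) w = 0 := by
          rw [hab]; rfl
        rw [Subalgebra.coe_mul, Module.End.mul_apply] at h1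
        have h2 : (a : Module.End (ZMod q) V) ((b : Module.End (ZMod q) V) w) =
            (a : Module.End (ZMod q) V) 0 := by rw [h1, map_zero]
        exact hinja h2
    haveI : IsDomain (KA ρ A) := NoZeroDivisors.to_isDomain _
    let φ : A →* (KA ρ A) :=
      { toFun := fun a => ⟨toE ρ (a : G), Algebra.subset_adjoin ⟨(a : G), a.2, rfl⟩⟩
        map_one' := Subtype.ext (toE_one ρ)
        map_mul' := fun a b => Subtype.ext (toE_mul ρ a b) }
    have hφ : Function.Injective φ := by
      intro a b hab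
      have h1 : toE ρ (a : G) = toE ρ (b : G) := congrArg Subtype.val hab
      apply Subtype.ext
      apply hinj
      apply LinearEquiv.toLinearMap_injective
      exact h1
    exact Cfsg.Agent.Lib.Helper32.HUP.isCyclic_of_hom_finite_domain φ hφ
  · -- the cardinality bound
    intro hirr
    unfold Irr at hirr
    push_neg at hirr
    obtain ⟨W, hW, hbot, htop⟩ := hirr
    obtain ⟨w₀, hw₀, hw₀0⟩ := Submodule.exists_mem_ne_zero_of_ne_bot hbot
    have hKW := ka_inv ρ A W hW
    have hinjψ : Function.Injective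
        (fun f : KA ρ A => (⟨(f : Module.End (ZMod q) V) w₀, hKW f.1 f.2 w₀ hw₀⟩ : W)) := by
      intro f f' hff
      have h1 : (f : Module.End (ZMod q) V) w₀ = (f' : Module.End (ZMod q) V) w₀ :=
        congrArg Subtype.val hff
      by_contra hne
      have hne' : ((f - f' : KA ρ A) : Module.End (ZMod q) V) ≠ 0 := by
        intro h
        apply hne
        apply Subtype.ext
        have h2 : (f : Module.End (ZMod q) V) - (f' : Module.End (ZMod q) V) = 0 := by
          rw [← Subalgebra.coe_sub]; exact h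
        exact sub_eq_zero.1 h2
      have hi := hfld.2 _ (f - f').2 hne'
      have h3 : ((f - f' : KA ρ A) : Module.End (ZMod q) V) w₀ =
          ((f - f' : KA ρ A) : Module.End (ZMod q) V) 0 := by
        rw [Subalgebra.coe_sub, LinearMap.sub_apply, h1, sub_self, map_zero]
      exact hw₀0 (hi h3)
    have hle : Nat.card (KA ρ A) ≤ Nat.card W := Nat.card_le_card_of_injective _ hinjψ
    have hlt : Nat.card W < Nat.card V := by
      have hex : ∃ y : V, y ∉ W := by
        by_contra hcon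
        push_neg at hcon
        exact htop (Submodule.eq_top_iff'.2 hcon)
      obtain ⟨y, hy⟩ := hex
      exact Finite.card_subtype_lt hy
    exact lt_of_le_of_lt hle hlt

end Cfsg.Agent.Lib.Helper77.HUPT
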