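import Mathlib
import Cfsg.Agent.Lib.Helper50.HUPT.Defs
import Cfsg.Agent.Lib.Helper40.Semisimple

/-!
# HUPT (S3360): package [PPDC]

If `⟨x⟩` acts irreducibly, the endomorphisms commuting with `ρ x` commute with each other
(they are all polynomials in `ρ x`).
-/

set_option autoImplicit false

namespace Cfsg.Agent.Lib.Helper77.HUPT

open Polynomial Cfsg.Agent.Lib.Helper50.HUPT Cfsg.Agent.Lib.Helper40
open Cfsg.Agent.Lib.Helper49.HUP (Irr)

universe u v

theorem toE_pow_apply {q : ℕ} [Fact q.Prime] {V : Type u} [AddCommGroup V] [Module (ZMod q) V]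
    {G : Type v} [Group G] (ρ : G →* (V ≃ₗ[ZMod q] V)) (x : G) :
    ∀ (n : ℕ) (w : V), ρ (x ^ n) w = ((toE ρ x) ^ n) w := by
  intro n
  induction n with
  | zero => intro w; simp
  | succ n ih =>
    intro w
    rw [pow_succ, map_mul, LinearEquiv.mul_apply, ih, pow_succ, Module.End.mul_apply]
    rfl

/-- If `⟨x⟩` is irreducible, every endomorphism commuting with `ρ x` is a polynomial in it. -/
theorem exists_poly_of_commute {q : ℕ} [Fact q.Prime] {V : Type u} [AddCommGroup V]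
    [Module (ZMod q) V] [Nontrivial V] {G : Type v} [Group G] [Finite G]
    (ρ : G →* (V ≃ₗ[ZMod q] V)) (x : G) (hirr : Irr ρ (Subgroup.zpowers x))
    (f : Module.End (ZMod q) V) (hf : f * toE ρ x = toE ρ x * f) :
    ∃ s : (ZMod q)[X], f = aeval (toE ρ x) s := by
  obtain ⟨v₀, hv₀⟩ := exists_ne (0 : V)
  have hW : cyc (toE ρ x) v₀ = ⊤ := by
    have hinv : ∀ a ∈ Subgroup.zpowers x, ∀ w ∈ cyc (toE ρ x) v₀, ρ a w ∈ cyc (toE ρ x) v₀ := by
      intro a ha w hw
      obtain ⟨n, rfl⟩ := (isOfFinOrder_of_finite x).mem_powers_iff_mem_zpowers.2 ha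
      obtain ⟨h, rfl⟩ := hw
      change ρ (x ^ n) _ ∈ _
      rw [toE_pow_apply]
      refine ⟨X ^ n * h, ?_⟩
      rw [evalAt_mul, aeval_X_pow]
    rcases hirr (cyc (toE ρ x) v₀) hinv with h | h
    · exfalso
      have h1 := self_mem_cyc (toE ρ x) v₀
      rw [h, Submodule.mem_bot] at h1
      exact hv₀ h1
    · exact h
  have hcomm : ∀ h : (ZMod q)[X], f * aeval (toE ρ x) h = aeval (toE ρ x) h * f := by
    intro h
    have h2 : Algebra.adjoin (ZMod q) {toE ρ x} ≤
        Subalgebra.centralizer (ZMod q) ({f} : Set (Module.End (ZMod q) V)) := by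
      apply Algebra.adjoin_le
      intro a ha
      rw [Set.mem_singleton_iff] at ha
      subst ha
      rw [SetLike.mem_coe, Subalgebra.mem_centralizer_iff]
      intro g hg
      rw [Set.mem_singleton_iff] at hg
      subst hg
      exact hf
    have h1 := h2 (aeval_mem_adjoin_singleton (ZMod q) (toE ρ x) (p := h))
    exact ((Subalgebra.mem_centralizer_iff (ZMod q)).1 h1) f rfl
  have hfv : f v₀ ∈ cyc (toE ρ x) v₀ := by rw [hW]; trivial
  obtain ⟨s, hs⟩ := hfv
  refine ⟨s, LinearMap.ext fun w => ?_⟩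
  have hw : w ∈ cyc (toE ρ x) v₀ := by rw [hW]; trivial
  obtain ⟨h, rfl⟩ := hw
  rw [evalAt_apply]
  have h1 : f (aeval (toE ρ x) h v₀) = aeval (toE ρ x) h (f v₀) := by
    rw [← Module.End.mul_apply, hcomm h, Module.End.mul_apply]
  rw [h1, ← hs, evalAt_apply, ← Module.End.mul_apply, ← Module.End.mul_apply, ← map_mul,
    ← map_mul, mul_comm]

theorem pkgPpdC : PkgPpdC.{u, v} := by
  intro q _ V _ _ _ _ G _ _ ρ x hirr f g hf hg
  obtain ⟨s₁, rfl⟩ := exists_poly_of_commute ρ x hirr f hf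
  obtain ⟨s₂, rfl⟩ := exists_poly_of_commute ρ x hirr g hg
  rw [← map_mul, ← map_mul, mul_comm]

end Cfsg.Agent.Lib.Helper77.HUPT
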